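import Cfsg.Agent.Lib.Helper68.BG10C

/-!
# Bender–Glauberman 10.5 (statement S1409), conditional on the Uniqueness Theorem `UT G`.
-/

set_option autoImplicit false
set_option linter.style.haveILetI false

namespace Cfsg.Agent.Lib.Helper40.BG10

open Subgroup Cfsg.Agent.Lib.Helper30 Cfsg.Agent.Lib.Helper2 Cfsg.Agent.Lib.Helper68

universe u

variable {G : Type u} [Group G]

theorem exists_central_order_p [Finite G] {p : ℕ} [Fact p.Prime] {P : Subgroup G}
    (hP : IsPGroup p P) (hP1 : P ≠ ⊥) :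
    ∃ z ∈ P, z ∈ centralizer (P : Set G) ∧ orderOf z = p := by
  haveI : Nontrivial ↥P := (Subgroup.nontrivial_iff_ne_bot P).2 hP1
  haveI := hP.center_nontrivial
  have hpc : IsPGroup p ↥(Subgroup.center ↥P) := hP.to_subgroup _
  obtain ⟨n, hn⟩ := IsPGroup.iff_card.1 hpc
  have hn0 : n ≠ 0 := by
    rintro rfl
    rw [pow_zero] at hn
    have := Finite.one_lt_card (α := ↥(Subgroup.center ↥P))
    omega
  have hdvd : p ∣ Nat.card ↥(Subgroup.center ↥P) := by
    rw [hn]; exact dvd_pow_self p hn0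
  obtain ⟨z, hz⟩ := exists_prime_orderOf_dvd_card' p hdvd
  refine ⟨((z : ↥P) : G), (z : ↥P).2, ?_, ?_⟩
  · rw [mem_centralizer_iff]
    intro y hy
    have := (Subgroup.mem_center_iff.1 z.2) ⟨y, hy⟩
    exact congrArg Subtype.val this
  · rw [Subgroup.orderOf_coe, Subgroup.orderOf_coe, hz]

theorem ea_of_card_prime [Finite G] {p : ℕ} [hp : Fact p.Prime] {X : Subgroup G} (hX : Nat.card X = p) :
    Cfsg.IsElementaryAbelian p X := by
  haveI : IsCyclic ↥X := isCyclic_of_prime_card hX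
  refine ⟨⟨⟨fun a b => ?_⟩⟩, fun a ha => ?_⟩
  · obtain ⟨g, hg⟩ := IsCyclic.exists_generator (α := ↥X)
    obtain ⟨i, rfl⟩ := Subgroup.mem_zpowers_iff.1 (hg a)
    obtain ⟨j, rfl⟩ := Subgroup.mem_zpowers_iff.1 (hg b)
    rw [← zpow_add, ← zpow_add, add_comm]
  · have : (⟨a, ha⟩ : ↥X) ^ Nat.card ↥X = 1 := pow_card_eq_one'
    rw [hX] at this
    simpa using congrArg Subtype.val this

theorem ea_zpowers' {p : ℕ} {y : G} (hy : y ^ p = 1) : Cfsg.IsElementaryAbelian p (zpowers y) := by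
  refine ⟨⟨⟨?_⟩⟩, ?_⟩
  · rintro ⟨a, ha⟩ ⟨b, hb⟩
    obtain ⟨i, rfl⟩ := Subgroup.mem_zpowers_iff.1 ha
    obtain ⟨j, rfl⟩ := Subgroup.mem_zpowers_iff.1 hb
    apply Subtype.ext
    change y ^ i * y ^ j = y ^ j * y ^ i
    rw [← zpow_add, ← zpow_add, add_comm]
  · intro a ha
    obtain ⟨i, rfl⟩ := Subgroup.mem_zpowers_iff.1 ha
    rw [← zpow_natCast, ← zpow_mul, mul_comm, zpow_mul, zpow_natCast, hy, one_zpow]

/-- If `X ≤ P` has order `p` and `N_G(P) ≰ N_G(X)`, some element of order dividing `p` of `C_P(X)`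
lies outside `X`. -/
theorem exists_commuting_not_mem [Finite G] {p : ℕ} [hp : Fact p.Prime] {P X : Subgroup G}
    (hP : IsPGroup p P) (hXP : X ≤ P) (hX : Nat.card X = p)
    (hN : ¬ normalizer (P : Set G) ≤ normalizer (X : Set G)) :
    ∃ y ∈ P, y ∈ centralizer (X : Set G) ∧ y ^ p = 1 ∧ y ∉ X := by
  by_contra hcon
  push Not at hcon
  have hXe := ea_of_card_prime hX
  have hX1 : X ≠ ⊥ := by
    rintro rfl
    rw [Subgroup.card_bot] at hX
    exact hp.out.one_lt.ne hX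
  have hP1 : P ≠ ⊥ := fun h => hX1 (le_bot_iff.mp (h ▸ hXP))
  obtain ⟨z, hzP, hzc, hzo⟩ := exists_central_order_p hP hP1
  have hzX : z ∈ X := hcon z hzP (centralizer_le (by exact_mod_cast hXP) hzc)
    (by rw [← hzo]; exact pow_orderOf_eq_one z)
  have hXz : X = zpowers z := by
    symm
    apply Subgroup.eq_of_le_of_card_ge (by rw [zpowers_le]; exact hzX)
    rw [Nat.card_zpowers, hzo, hX]
  have hPc : P ≤ centralizer (X : Set G) := by
    rw [hXz]
    intro y hy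
    rw [mem_centralizer_iff]
    intro w hw
    obtain ⟨i, rfl⟩ := Subgroup.mem_zpowers_iff.1 hw
    have h1 : Commute z y := (mem_centralizer_iff.mp hzc y hy).symm
    exact (h1.zpow_left i)
  apply hN
  intro g hg
  apply mem_normalizer_of_cj_eq
  have hle : cj g X ≤ X := by
    rintro _ ⟨x, hx, rfl⟩
    simp only [MulEquiv.coe_toMonoidHom, MulAut.conj_apply]
    have hxP : g * x * g⁻¹ ∈ P := (mem_normalizer_iff.mp hg x).mp (hXP hx)
    exact hcon _ hxP (hPc hxP) (by rw [conj_pow, hXe.2 x hx]; group)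
  exact Subgroup.eq_of_le_of_card_ge hle (by rw [card_cj])

/-- B-G 10.5 (statement S1409), conditional on the Uniqueness Theorem. -/
theorem S1409_of [Finite G] (hG : Cfsg.IsMinSimpleOddOrder G) (hU : UT G)
    (M : Subgroup G) (hM : IsCoatom M) (p : ℕ) [hpp : Fact p.Prime] (hp : p ∉ Cfsg.sigma M)
    (X : Subgroup G) (hX : Nat.card X = p) (hNX : Subgroup.normalizer (X : Set G) ≤ M) :
    (Cfsg.PRankLE p 2 M ∧ ¬ Cfsg.PRankLE p 1 M) ∧ ¬ Cfsg.IsIdealPrime p G ∧
      ∃ A : Subgroup G, Cfsg.IsElementaryAbelian p A ∧ Nat.card A = p ^ 2 ∧ X ≤ A := by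
  have hXM : X ≤ M := le_normalizer.trans hNX
  have hXe := ea_of_card_prime hX
  have hX1 : X ≠ ⊥ := by
    rintro rfl
    rw [Subgroup.card_bot] at hX
    exact hpp.out.one_lt.ne hX
  obtain ⟨P, hP, hXP⟩ := exists_isSylowIn_ge hXM (ea_isPGroup hXe)
  have hP1 : P ≠ ⊥ := fun h => hX1 (le_bot_iff.mp (h ▸ hXP))
  have hr2 : Cfsg.PRankLE p 2 M := by
    by_contra h
    exact hp (mem_sigma_of_mem_alpha hG hU hM ⟨hpp.out, h⟩)
  have hN : ¬ normalizer (P : Set G) ≤ normalizer (X : Set G) := fun h =>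
    hp (mem_sigma_of_normalizer_le hP hP1 (h.trans hNX))
  obtain ⟨y, hyP, hyc, hyp, hyX⟩ := exists_commuting_not_mem hP.isPGroup hXP hX hN
  have hAe : Cfsg.IsElementaryAbelian p (X ⊔ zpowers y) := by
    apply ea_sup hXe (ea_zpowers' hyp)
    intro a ha b hb
    obtain ⟨i, rfl⟩ := Subgroup.mem_zpowers_iff.1 hb
    have h1 : Commute y a := (mem_centralizer_iff.mp hyc a ha).symm
    exact (h1.zpow_left i).symm
  have hAM : X ⊔ zpowers y ≤ M := sup_le hXM (by rw [zpowers_le]; exact hP.le hyP)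
  have hlt : X < X ⊔ zpowers y := by
    refine lt_of_le_of_ne le_sup_left fun h => hyX ?_
    rw [h]; exact mem_sup_right (mem_zpowers y)
  have hcard : p < Nat.card ↥(X ⊔ zpowers y) := hX ▸ card_lt_of_lt hlt
  have hr1 : ¬ Cfsg.PRankLE p 1 M := not_pRankLE_of_elementary hAM hAe (by simpa using hcard)
  exact ⟨⟨hr2, hr1⟩, (S1408_of hG hU M hM p hr2 hr1).1,
    ⟨_, hAe, card_eq_sq hr2 hAM hAe hcard, le_sup_left⟩⟩

end Cfsg.Agent.Lib.Helper40.BG10
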